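import Cfsg.Agent.Fus.Sp4Type
import Cfsg.Agent.StdSz.Defs
import Cfsg.Prelude.Def_SporadicB

/-!
# Recognition of `PSp₆(3)` from an involution centraliser and a subgroup `L₃(3)`: definitions
-/

set_option autoImplicit false

namespace Cfsg.Lib.L33P

open Subgroup Cfsg.Lib.Gold Cfsg.Lib.Trans Cfsg.Lib.Fus.Grp Cfsg.Lib.Known.GL2

/-- `SL₂(3)` -/
abbrev A2 : Type := SL2 (ZMod 3)

/-- `Sp₄(3)` -/
abbrev S4 : Type := Sp4M (ZMod 3)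

/-- the embedding of `SL₂(3) × SL₂(3)` -/
abbrev pr : A2 × A2 →* S4 := spPair (ZMod 3)

/-- a short root element -/
def x0 : S4 := ⟨k4 1 !![0, 1; 0, 0] !![0, 1; 0, 0] 1, SymplecticGroup.mem_iff.2 (by decide +kernel)⟩

theorem x0_eq_1' : type_of% @x0.eq_1 := @x0.eq_1

variable {X : Type*} [Group X]

/-- the centraliser of the involution `r3` -/
structure PC (L O E : Subgroup X) (r1 r3 : X) : Prop where
  isoL : Nonempty (L ≃* Matrix.SpecialLinearGroup (Fin 3) (ZMod 3))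
  r1L : r1 ∈ L
  r3L : r3 ∈ L
  r12 : r1 * r1 = 1
  r11 : r1 ≠ 1
  ne : r1 ≠ r3
  isoE : Nonempty (E ≃* Matrix.symplecticGroup (Fin 2) (ZMod 3))
  r1E : r1 ∈ E
  r3E : r3 ∈ E
  EH : E ≤ C1 r3
  dec : ∀ h ∈ C1 r3, ∃ c ∈ Cs E, ∃ e ∈ E, h = c * e
  OC : O ≤ Cs E
  odd : Odd (Nat.card O)
  nO : C1 r3 ≤ Ns O
  idx : Nat.card (Cs E) ≤ 24 * Nat.card O
  tc : IsTwoCentralInvolution r3

/-- some elements of the subgroup `L₃(3)` -/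
structure LW (r1 r3 x y w s : X) : Prop where
  x3 : x ^ 3 = 1
  x1 : x ≠ 1
  y3 : y ^ 3 = 1
  xr : Commute x r3
  yr : Commute y r3
  rx : r1 * x * r1⁻¹ = x⁻¹
  ry : r1 * y * r1⁻¹ = y⁻¹
  w1 : w * r1 * w⁻¹ = r1
  w2 : w * (r1 * r3) * w⁻¹ = r3
  ws : w * s * w⁻¹ = x * y * x
  s1 : s * r1 * s⁻¹ = r3
  s3 : s * r3 * s⁻¹ = r1
  xs : Commute x (s * x * s⁻¹)

end Cfsg.Lib.L33P
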